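/-
The count of the tori of `L₂(q)` generating a group of odd order with a given one.
-/
import Cfsg.Agent.H23.PG
import Cfsg.Agent.GW.Basic2
import Cfsg.Agent.H28.MobLocal
import Cfsg.Agent.H18.SmallTools

set_option autoImplicit false

namespace Cfsg.Agent.GW

open Subgroup Cfsg Cfsg.Agent.H49 Cfsg.Agent.H23

universe u

theorem free_count {Γ : Type*} [Group Γ] [Finite Γ] {S N M : Subgroup Γ} (hSN : S ≤ N)
    (hSM : S ≤ M) (h : ∀ g ∈ M, g ∉ N → ∀ s ∈ S, g⁻¹ * s * g ∈ N → s = 1) :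
    Nat.card S ∣ N.relIndex M - 1 ∧ (N.relIndex M ≤ Nat.card S + 1 →
      ∀ g ∈ M, g ∉ N → ∀ k ∈ M, k ∉ N → ∃ s ∈ S, k⁻¹ * s * g ∈ N) := by
  let W : Set (M ⧸ N.subgroupOf M) := {((1 : M) : M ⧸ N.subgroupOf M)}ᶜ
  have hW : ∀ g : M, (g : M ⧸ N.subgroupOf M) ∈ W ↔ (g : Γ) ∉ N := fun g => by
    simp only [W, Set.mem_compl_iff, Set.mem_singleton_iff, QuotientGroup.eq, mul_one,
      mem_subgroupOf, coe_inv, inv_mem_iff]
  have hc : W.ncard = N.relIndex M - 1 := by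
    rw [Set.ncard_compl, Set.ncard_singleton]; rfl
  have hinv : ∀ s : S.subgroupOf M, ∀ x ∈ W, s • x ∈ W := fun s x => by
    refine Quotient.inductionOn' x fun g hg => (hW (s * g)).2 fun e => (hW g).1 hg ?_
    exact (mul_mem_cancel_left (hSN s.2)).1 e
  have hfree : ∀ s : S.subgroupOf M, ∀ x ∈ W, s • x = x → s = 1 := fun s x => by
    refine Quotient.inductionOn' x fun g hg e => Subtype.ext (Subtype.ext ?_)
    have := QuotientGroup.eq.1 (show ((s * g : M) : M ⧸ N.subgroupOf M) = g from e).symm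
    exact h g g.2 ((hW g).1 hg) _ s.2 (by rw [mul_assoc]; exact this)
  refine ⟨by rw [← hc, ← card_subgroupOf_of_le hSM]; exact H28.card_dvd_ncard_of_free W hinv hfree,
    fun hle g hg gN k hk kN => ?_⟩
  have hx := (hW ⟨g, hg⟩).2 gN
  let f : S.subgroupOf M → W := fun s => ⟨s • _, hinv s _ hx⟩
  have hf : Function.Injective f := fun a b e => by
    have e' : a • ((⟨g, hg⟩ : M) : M ⧸ N.subgroupOf M) = b • _ := congrArg Subtype.val e
    have := hfree (b⁻¹ * a) _ hx (by rw [mul_smul, e', inv_smul_smul])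
    exact (inv_mul_eq_one.1 this).symm
  have hs := (hf.bijective_of_nat_card_le (by
    rw [card_subgroupOf_of_le hSM, Nat.card_coe_set_eq, hc]; omega)).2
  obtain ⟨s, e⟩ := hs ⟨_, (hW ⟨k, hk⟩).2 kN⟩
  have e' : ((s * ⟨g, hg⟩ : M) : M ⧸ N.subgroupOf M) = (⟨k, hk⟩ : M) := congrArg Subtype.val e
  have e'' := QuotientGroup.eq.1 e'.symm
  exact ⟨_, s.2, by rw [mul_assoc]; exact e''⟩

variable {Γ : Type u} [Group Γ] [Finite Γ] {L P : Subgroup Γ} {tr : Γ → Subgroup Γ} {τ m p : ℕ}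

/-- unipotent elements -/
structure Uni (P : Subgroup Γ) (tr : Γ → Subgroup Γ) (p : ℕ) (u : Γ) : Prop where
  mem : u ∈ P
  ne : u ≠ 1
  pow : ∀ y ∈ tr u, y ^ p = 1

namespace PGB

variable (h : PG L P tr τ m p)
include h

omit [Finite Γ] in
theorem eq_one {x : Γ} {k : ℕ} (h1 : x ^ p ^ k = 1) (h2 : x * x = 1) : x = 1 :=
  eq_one_of_odd_of_sq (Odd.of_dvd_nat ((h.p_prime.odd_of_ne_two h.p_ne).pow)
    (orderOf_dvd_of_pow_eq_one h1)) h2

omit [Finite Γ] in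
theorem card_P : Nat.card P = (τ + m) * (4 * τ * m) := by
  rw [← card_mul_relIndex h.L_le, h.relIndex, h.card_L]; ring

omit [Finite Γ] in
theorem pi_q : IsPiNat {p} (τ + m) ∧ IsPiNat {p}ᶜ (4 * τ * m) := by
  obtain ⟨f, hf⟩ := h.q_pow
  refine ⟨hf ▸ isPiNat_singleton_pow h.p_prime f, (isPiNat_compl_singleton h.p_prime).2 fun e => ?_⟩
  have h3 := h.three_le
  have h1 : p ∣ τ + m := hf ▸ dvd_pow_self p (by rintro rfl; rw [pow_zero] at hf; omega)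
  have h2 : p ∣ τ ∧ p ∣ m := by
    rcases (Nat.Prime.dvd_mul h.p_prime).1 e with e | e
    · rcases (Nat.Prime.dvd_mul h.p_prime).1 e with e | e
      · exact absurd ((Nat.prime_dvd_prime_iff_eq h.p_prime Nat.prime_two).1
          (h.p_prime.dvd_of_dvd_pow (show p ∣ 2 ^ 2 from e))) h.p_ne
      · exact ⟨e, (Nat.dvd_add_right e).1 h1⟩
    · exact ⟨(Nat.dvd_add_left e).1 h1, e⟩
  refine h.p_prime.one_lt.ne' (Nat.dvd_one.1 ?_)
  rcases h.near with e | e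
  · exact (Nat.dvd_add_right h2.1).1 (e ▸ h2.2)
  · exact (Nat.dvd_add_right h2.2).1 (e ▸ h2.1)

theorem sylow {u : Γ} (hu : Uni P tr p u) : IsSylowOf p (tr u) P := by
  have h1 : IsPi {p} (tr u) := isPi_of_isPGroup h.p_prime fun y =>
    ⟨1, Subtype.ext (by simpa using hu.pow y y.2)⟩
  obtain ⟨S, hS, hle⟩ := exists_sylowOf_ge h1 (h.tor_le u hu.mem)
  obtain ⟨z, hz, z1⟩ := ne_bot_iff_exists.1 (center_ne_bot_of_nilpotent hS.pi.nilpotent
    (ne_bot_mono hle (ne_bot_iff_exists.2 ⟨u, h.self_mem u hu.mem, hu.ne⟩)))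
  obtain ⟨k, hk⟩ := hS.pi.isPGroup h.p_prime ⟨z, hz.1⟩
  have h2 : S ≤ tr z := fun y hy => h.mem_tor_of_comm (hS.le hz.1)
    (fun e => z1 (eq_one h (congrArg Subtype.val hk) e)) (hS.le hy)
    (mem_centralizer_iff.1 hz.2 y hy)
  rw [← h.tor_eq z (hS.le hz.1) z1 u (h2 (hle (h.self_mem u hu.mem))) hu.ne] at h2
  rwa [le_antisymm hle h2]

theorem card_uni {u : Γ} (hu : Uni P tr p u) : Nat.card (tr u) = τ + m :=
  pi_factor_unique ((card_mul_relIndex (sylow h hu).le).trans (card_P h)) (sylow h hu).pi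
    (sylow h hu).index (pi_q h).1 (pi_q h).2

omit [Finite Γ] in
theorem fpf {u t y n : Γ} (hu : Uni P tr p u) (ht : t ∈ P) (t2 : t * t = 1) (t1 : t ≠ 1)
    (hy : y ∈ tr t) (y1 : y ≠ 1) (hn : n ∈ tr u) (c : y * n = n * y) : n = 1 := by
  by_contra n1
  have h1 := h.mem_tor_of_comm (h.tor_le u hu.mem hn)
    (fun e => n1 (eq_one h (k := 1) (by simpa using hu.pow n hn) e)) (h.tor_le t ht hy) c
  have h2 := h.tor_eq n (h.tor_le u hu.mem hn) n1 y h1 y1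
  rw [h.tor_eq u hu.mem hu.ne n hn n1, h.tor_eq t ht t1 y hy y1] at h2
  exact t1 (eq_one h (k := 1) (by simpa using hu.pow t (h2 ▸ h.self_mem t ht)) t2)

omit [Finite Γ] in
theorem cj_tr {u : Γ} (hu : u ∈ P) (g : Γ) : cj g (tr u) = tr (g * u * g⁻¹) :=
  (h.tor_conj g hu).symm

omit [Finite Γ] in
theorem conj_uni {u : Γ} (hu : Uni P tr p u) (g : Γ) : Uni P tr p (g * u * g⁻¹) :=
  ⟨h.P_normal.conj_mem u hu.mem g, by simpa using hu.ne, fun y hy => by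
    rw [← cj_tr h hu.mem, mem_cj'] at hy
    obtain ⟨z, hz, rfl⟩ := hy
    rw [conj_pow, hu.pow z hz]; simp⟩

/-- a unipotent element normalising another unipotent group is trivial -/
theorem eq_one_of_norm {u w s : Γ} (hu : Uni P tr p u) (hw : Uni P tr p w) (hne : tr w ≠ tr u)
    (hs : s ∈ tr u) (hn : s ∈ 𝒩(tr w)) : s = 1 := by
  by_contra s1
  have h1 : zpowers s ≤ tr w := (sylow h hw).le_of_norm
    (zpowers_le_of_mem (h.tor_le u hu.mem hs)) ((sylow h hu).pi.of_le (zpowers_le_of_mem hs))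
    (Or.inl (zpowers_le_of_mem hn))
  exact hne ((h.tor_eq w hw.mem hw.ne s (h1 (mem_zpowers s)) s1).symm.trans
    (h.tor_eq u hu.mem hu.ne s hs s1))

theorem trans {u w w' : Γ} (hu : Uni P tr p u) (hw : Uni P tr p w) (hw' : Uni P tr p w')
    (h1 : tr w ≠ tr u) (h2 : tr w' ≠ tr u) : ∃ s ∈ tr u, cj s (tr w) = tr w' := by
  obtain ⟨h3, h4⟩ := free_count (S := tr u) (N := 𝒩(tr u)) (M := P) le_normalizer
    (h.tor_le u hu.mem) fun g _ gN s hs e => by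
      refine eq_one_of_norm h hu (conj_uni h hu g) ?_ hs ?_
      · rw [← cj_tr h hu.mem]
        exact fun e => gN (mem_norm_iff_cj.2 e)
      · rw [← cj_tr h hu.mem, ← cj_normalizer]
        exact mem_cj.2 e
  obtain ⟨g, hg, e1⟩ := sylowOf_conj (sylow h hu) (sylow h hw)
  obtain ⟨k, hk, e2⟩ := sylowOf_conj (sylow h hu) (sylow h hw')
  suffices H : 𝒩(tr u).relIndex P ≤ Nat.card (tr u) + 1 by
    obtain ⟨s, hs, e⟩ := h4 H g hg (fun e => h1 (by rw [← e1, cj_eq_of_mem_norm e])) k hk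
      (fun e => h2 (by rw [← e2, cj_eq_of_mem_norm e]))
    refine ⟨s, hs, ?_⟩
    rw [← e1, ← e2, cj_cj, show s * g = k * (k⁻¹ * s * g) by group, cj_mul, cj_eq_of_mem_norm e]
  · have h5 := card_inf_mul_relIndex 𝒩(tr u) P
    have h6 := card_mul_relIndex (le_inf le_normalizer (h.tor_le u hu.mem) : tr u ≤ 𝒩(tr u) ⊓ P)
    have h7 := relIndex_pos 𝒩(tr u) P
    rw [card_uni h hu] at h3 h6 ⊢
    rw [← h6, card_P h, mul_assoc] at h5
    have h8 := h.three_le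
    have h9 := Nat.eq_of_mul_eq_mul_left (by omega) h5
    have h10 : 4 * τ * m + 1 = (τ + m) * (τ + m) := by
      rcases h.near with e | e <;> rw [e] <;> ring
    generalize 𝒩(tr u).relIndex P = n at *
    generalize (tr u).relIndex (𝒩(tr u) ⊓ P) = d at *
    generalize hq : τ + m = q at *
    obtain ⟨a, ha⟩ := h3
    have hn : n = q * a + 1 := by omega
    have h11 : q ∣ d + 1 := by
      have : q * q = q * (d * a) + (d + 1) := by rw [← h10, ← h9, hn]; ring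
      exact (Nat.dvd_add_right (Dvd.intro _ rfl)).1 (this ▸ Dvd.intro _ rfl)
    have h12 := Nat.le_of_dvd (by omega) h11
    by_contra h13
    have : q + 2 ≤ n := by omega
    nlinarith [Nat.mul_le_mul h12 this]

/-- a semisimple element normalises at most two unipotent groups -/
theorem two {t y u w w' : Γ} (ht : t ∈ P) (t2 : t * t = 1) (t1 : t ≠ 1) (hy : y ∈ tr t)
    (y1 : y ≠ 1) (hu : Uni P tr p u) (hw : Uni P tr p w) (hw' : Uni P tr p w')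
    (nu : y ∈ 𝒩(tr u)) (nw : y ∈ 𝒩(tr w)) (nw' : y ∈ 𝒩(tr w'))
    (h1 : tr w ≠ tr u) (h2 : tr w' ≠ tr u) : tr w = tr w' := by
  obtain ⟨s, hs, e⟩ := trans h hu hw hw' h1 h2
  have h3 := conj_mem_of_norm le_rfl nu hs
  have h4 : s⁻¹ * (y * s * y⁻¹) = 1 := eq_one_of_norm h hu hw h1 (mul_mem (inv_mem hs) h3) (by
    rw [mem_norm_iff_cj, cj_mul, cj_mul, cj_mul, cj_eq_of_mem_norm (inv_mem nw), e,
      cj_eq_of_mem_norm nw', ← e, cj_inv_cj])
  have h5 : s = 1 := fpf h hu ht t2 t1 hy y1 hs (by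
    rw [inv_mul_eq_one, eq_mul_inv_iff_mul_eq] at h4; exact h4.symm)
  rw [← e, h5, cj_one]

theorem inv_norm {t y u : Γ} (ht : t ∈ L) (t2 : t * t = 1) (t1 : t ≠ 1) (hy : y ∈ tr t)
    (y1 : y ≠ 1) (hu : Uni P tr p u) (nu : y ∈ 𝒩(tr u)) : t ∈ 𝒩(tr u) := by
  have hP := h.L_le ht
  obtain ⟨c, hc, e⟩ := h.exists_sqrt hP t2 t1 ht
  have h1 : ∀ w, Uni P tr p w → y ∈ 𝒩(tr w) → y ∈ 𝒩(tr (c * w * c⁻¹)) := fun w hw nw => by
    rw [← cj_tr h hw.mem, ← cj_normalizer, mem_cj, mul_assoc, h.tor_comm hP t1 hy hc,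
      inv_mul_cancel_left]
    exact nw
  have hw := conj_uni h hu c
  rw [mem_norm_iff_cj, ← e, cj_mul, cj_tr h hu.mem]
  by_cases h2 : tr u = tr (c * u * c⁻¹)
  · rw [← h2, cj_tr h hu.mem, ← h2]
  · rw [cj_tr h hw.mem]
    refine two h hP t2 t1 hy y1 hw (conj_uni h hw c) hu (h1 u hu nu) (h1 _ hw (h1 u hu nu)) nu
      (fun e' => h2 ?_) h2
    rw [← cj_tr h hw.mem, ← cj_tr h hu.mem, cj_inj, cj_tr h hu.mem] at e'
    exact e'.symm

omit [Finite Γ] in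
theorem inverts_u {t u : Γ} (ht : t ∈ P) (t2 : t * t = 1) (t1 : t ≠ 1) (hu : Uni P tr p u)
    (nu : t ∈ 𝒩(tr u)) : t * u * t⁻¹ = u⁻¹ := by
  have h0 := h.self_mem u hu.mem
  have h1 := conj_mem_of_norm le_rfl nu h0
  have h2 := fpf h hu ht t2 t1 (h.self_mem t ht) t1 (mul_mem h0 h1) (by
    have h3 := h.comm_of_mem u hu.mem _ h1
    calc t * (u * (t * u * t⁻¹)) = t * u * t⁻¹ * ((t * t) * u) * t⁻¹ := by group
      _ = u * (t * u * t⁻¹) * t * (t * t)⁻¹ := by rw [t2, one_mul, h3, ← t2]; group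
      _ = _ := by rw [t2]; group)
  exact (eq_inv_of_mul_eq_one_right h2)

omit [Finite Γ] in
theorem mul_mem_uni {t v u : Γ} (ht : t ∈ P) (t2 : t * t = 1) (t1 : t ≠ 1) (hv : v ∈ P)
    (v2 : v * v = 1) (v1 : v ≠ 1) (hu : Uni P tr p u) (nt : t ∈ 𝒩(tr u)) (nv : v ∈ 𝒩(tr u)) :
    v * t ∈ tr u := by
  refine h.mem_tor_of_comm hu.mem (fun e => hu.ne (eq_one h (k := 1)
    (by simpa using hu.pow u (h.self_mem u hu.mem)) e)) (mul_mem hv ht) ?_
  calc v * t * u = v * (t * u * t⁻¹) * v⁻¹ * (v * t) := by group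
    _ = u * (v * t) := by
      rw [inverts_u h ht t2 t1 hu nt, ← conj_inv, inverts_u h hv v2 v1 hu nv, inv_inv]

theorem exists_uni {t v y z : Γ} (ht : t ∈ P) (t2 : t * t = 1) (t1 : t ≠ 1) (hv : v ∈ P)
    (v2 : v * v = 1) (v1 : v ≠ 1) (hy : y ∈ tr t) (y1 : y ≠ 1) (hz : z ∈ tr v) (z1 : z ≠ 1)
    (ho : Odd (Nat.card ↥(zpowers y ⊔ zpowers z : Subgroup Γ))) :
    v = t ∨ ∃ u, Uni P tr p u ∧ y ∈ 𝒩(tr u) ∧ z ∈ 𝒩(tr u) := by
  set X : Subgroup Γ := zpowers y ⊔ zpowers z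
  have hyX : y ∈ X := mem_sup_left (mem_zpowers y)
  have hzX : z ∈ X := mem_sup_right (mem_zpowers z)
  have hX : X ≤ P := sup_le (zpowers_le_of_mem (h.tor_le t ht hy))
    (zpowers_le_of_mem (h.tor_le v hv hz))
  have sq : ∀ x ∈ X, x ≠ 1 → x * x ≠ 1 := fun x hx x1 e =>
    x1 (eq_one_of_odd_of_sq (odd_orderOf_of_mem ho hx) e)
  obtain ⟨n, hn, n1⟩ := ne_bot_iff_exists.1 (center_ne_bot_of_nilpotent (fittingOf_nil X)
    (fittingOf_ne_bot (solvable_of_odd ho) (ne_bot_iff_exists.2 ⟨y, hyX, y1⟩)))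
  have hnX : n ∈ X := fittingOf_le X hn.1
  have h1 : ∀ g ∈ X, g * n * g⁻¹ ∈ tr n := fun g hg =>
    have h2 := conj_mem_of_norm (le_norm_fittingOf X) hg hn.1
    h.mem_tor_of_comm (hX hnX) (sq n hnX n1) (hX (fittingOf_le X h2))
      (mem_centralizer_iff.1 hn.2 _ h2)
  rcases h.uni_or_inv n (hX hnX) n1 with e | ⟨w, hw, w2, w1⟩
  · have h2 : ∀ g ∈ X, g ∈ 𝒩(tr n) := fun g hg => by
      rw [mem_norm_iff_cj, cj_tr h (hX hnX)]
      exact h.tor_eq n (hX hnX) n1 _ (h1 g hg) (by simpa using n1)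
    exact Or.inr ⟨n, ⟨hX hnX, n1, e⟩, h2 y hyX, h2 z hzX⟩
  · left
    have hwP := h.tor_le n (hX hnX) hw
    have e := h.tor_eq n (hX hnX) n1 w hw w1
    have h2 : ∀ a ∈ P, a * a = 1 → a ≠ 1 → ∀ g ∈ X, g ≠ 1 → g ∈ tr a → w = a :=
      fun a ha a2 a1 g hg g1 hga => by
        have h3 := h.comm_of_conj_mem hwP w2 w1 (e ▸ h.self_mem n (hX hnX)) n1 (e ▸ h1 g hg)
        have h4 := h.mem_tor_of_comm' hwP w1 (hX hg) (sq g hg g1) h3
        refine h.eq_of_inv ha a2 a1 ?_ w2 w1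
        rw [← h.tor_eq a ha a1 g hga g1, h.tor_eq w hwP w1 g h4 g1]
        exact h.self_mem w hwP
    rw [← h2 v hv v2 v1 z hzX z1 hz, h2 t ht t2 t1 y hyX y1 hy]

theorem split {t y u : Γ} (ht : t ∈ L) (t2 : t * t = 1) (t1 : t ≠ 1) (hy : y ∈ tr t)
    (y1 : y ≠ 1) (ho : Odd (orderOf y)) (hu : Uni P tr p u) (nu : y ∈ 𝒩(tr u)) : m = τ + 1 := by
  have hP := h.L_le ht
  refine h.near.resolve_right fun e => ?_
  obtain ⟨r, hr, hd⟩ := exists_prime_dvd_card (zpowers_ne_bot.2 y1)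
  obtain ⟨x, hx, hxr⟩ := exists_orderOf_eq_of_dvd_card hr hd
  have hxt : x ∈ tr t := zpowers_le_of_mem hy hx
  have x1 : x ≠ 1 := by rintro rfl; exact hr.one_lt.ne (by rw [← hxr, orderOf_one])
  have h1 := H18.modEq_cent (k := 1) hr (tr u) (x := x)
    (by rw [pow_one, ← hxr, pow_orderOf_eq_one]) (zpowers_le_of_mem nu hx)
  have h2 : tr u ⊓ 𝒞[x] = ⊥ := eq_bot_iff.2 fun n hn =>
    fpf h hu hP t2 t1 hxt x1 hn.1 (mem_cent1.1 hn.2).symm
  rw [h2, card_bot, card_uni h hu] at h1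
  have h3 : r ∣ 2 * τ := by
    rw [← h.card_T_of_mem hP t2 t1 ht, ← h.card_tor_eq hP t2 t1, ← hxr]
    exact Subgroup.orderOf_dvd_natCard _ hxt
  have h4 := (Nat.modEq_iff_dvd' (by omega)).1 h1.symm
  have h5 : r ∣ 2 := by
    have : 2 * τ = (τ + m - 1) + 2 := by omega
    exact (Nat.dvd_add_right h4).1 (this ▸ h3)
  rw [(Nat.prime_dvd_prime_iff_eq hr Nat.prime_two).1 h5, Nat.card_zpowers] at hd
  exact (Nat.not_even_iff_odd.2 ho) (even_iff_two_dvd.2 hd)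

end PGB

open PGB in
/-- The number of `L`-conjugates `e t e⁻¹` of `t` such that `⟨y, e y e⁻¹⟩` has odd order. -/
theorem pg_bad (h : PG L P tr τ m p) {t y : Γ} (ht : t ∈ L) (t2 : t * t = 1) (t1 : t ≠ 1)
    (hy : y ∈ tr t) (y1 : y ≠ 1) :
    {v | ∃ e ∈ L, v = e * t * e⁻¹ ∧
      Odd (Nat.card ↥(zpowers y ⊔ zpowers (e * y * e⁻¹) : Subgroup Γ))}.ncard ≤
      if m = τ + 1 then 4 * τ + 1 else 1 := by
  have hP := h.L_le ht
  set B := {v | ∃ e ∈ L, v = e * t * e⁻¹ ∧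
      Odd (Nat.card ↥(zpowers y ⊔ zpowers (e * y * e⁻¹) : Subgroup Γ))}
  have key : ∀ v ∈ B, v = t ∨
      (m = τ + 1 ∧ ∃ u, Uni P tr p u ∧ y ∈ 𝒩(tr u) ∧ v * t ∈ tr u) := by
    rintro _ ⟨e, -, rfl, ho⟩
    have hv := h.L_normal.conj_mem t ht e
    have v2 : e * t * e⁻¹ * (e * t * e⁻¹) = 1 := by
      rw [conj_mul, t2]; simp
    have v1 : e * t * e⁻¹ ≠ 1 := by simpa using t1
    have hz := h.conj_mem e t hP y hy
    have z1 : e * y * e⁻¹ ≠ 1 := by simpa using y1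
    refine (exists_uni h hP t2 t1 (h.L_le hv) v2 v1 hy y1 hz z1 ho).imp_right ?_
    rintro ⟨u, hu, n1, n2⟩
    exact ⟨split h ht t2 t1 hy y1 (odd_orderOf_of_mem ho (mem_sup_left (mem_zpowers y))) hu n1,
      u, hu, n1, mul_mem_uni h hP t2 t1 (h.L_le hv) v2 v1 hu (inv_norm h ht t2 t1 hy y1 hu n1)
        (inv_norm h hv v2 v1 hz z1 hu n2)⟩
  have h1 : ∀ u, Uni P tr p u → {v | v ≠ t ∧ v * t ∈ tr u}.ncard ≤ τ + m - 1 := fun u hu => by
    rw [← card_uni h hu, ← SetLike.coe_sort_coe, Nat.card_coe_set_eq,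
      ← Set.ncard_diff_singleton_of_mem (tr u).one_mem]
    refine Set.ncard_le_ncard_of_injOn (· * t) (fun v hv => ⟨hv.2, fun e => hv.1 ?_⟩)
      (fun _ _ _ _ e => mul_right_cancel e)
    exact mul_right_cancel (e.trans t2.symm)
  by_cases hB : B ⊆ {t}
  · refine (Set.ncard_le_ncard hB).trans ?_
    rw [Set.ncard_singleton]; split_ifs <;> omega
  obtain ⟨v, hv, vt⟩ := Set.not_subset.1 hB
  obtain ⟨hm, u, hu, nu, -⟩ := (key v hv).resolve_left vt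
  obtain ⟨w, hw, hw'⟩ : ∃ w, Uni P tr p w ∧
      ∀ w', Uni P tr p w' → y ∈ 𝒩(tr w') → tr w' = tr u ∨ tr w' = tr w := by
    by_cases h2 : ∃ w, Uni P tr p w ∧ y ∈ 𝒩(tr w) ∧ tr w ≠ tr u
    · obtain ⟨w, hw, nw, e⟩ := h2
      exact ⟨w, hw, fun w' hw' nw' => or_iff_not_imp_left.2 fun e' =>
        two h hP t2 t1 hy y1 hu hw' hw nu nw' nw e' e⟩
    · exact ⟨u, hu, fun w' hw' nw' => Or.inl (by_contra fun e => h2 ⟨w', hw', nw', e⟩)⟩
  have h2 : B ⊆ insert t ({v | v ≠ t ∧ v * t ∈ tr u} ∪ {v | v ≠ t ∧ v * t ∈ tr w}) := fun v hv => by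
    refine or_iff_not_imp_left.2 fun vt => ?_
    obtain ⟨-, w', hw'', nw', e⟩ := (key v hv).resolve_left vt
    rcases hw' w' hw'' nw' with e' | e'
    · exact Or.inl ⟨vt, e' ▸ e⟩
    · exact Or.inr ⟨vt, e' ▸ e⟩
  have h3 := (Set.ncard_le_ncard h2).trans ((Set.ncard_insert_le _ _).trans
    (Nat.add_le_add_right ((Set.ncard_union_le _ _).trans (add_le_add (h1 u hu) (h1 w hw))) 1))
  rw [if_pos hm]
  omega

end Cfsg.Agent.GW
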